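import Groth.Prelude.Def_EtCore
import Groth.Agent.EtpbcB.BCCalc

/-!
# Degree zero base change for sheaves whose unit is an isomorphism

* `pull_unit_baseChange0`: the inverse image of the unit of `f`, composed with the base change map, is
  the unit of `f'` up to a canonical isomorphism.
* `isIso_baseChange0_of_isIso_unit`: if the units `G ⟶ f_* f^* G` and `g^* G ⟶ f'_* f'^* g^* G` are isomorphisms,
  then so is `baseChange0` at `f^* G`.
* `isIso_baseChange0_const`: the case of a constant sheaf.
-/

set_option autoImplicit false
universe u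

open CategoryTheory CategoryTheory.Limits AlgebraicGeometry Opposite

namespace Groth.Agent.Pi1.H403.BcGlue

open EtCoh Groth.Agent.EtpbcB Groth.Agent.EtpbcB.BCCalc

variable {X Y X' Y' : Scheme.{u}} {f : X ⟶ Y} {g : Y' ⟶ Y} {f' : X' ⟶ Y'} {g' : X' ⟶ X}

/-- `f'^* g^* ≅ g'^* f^*`. -/
noncomputable def kap (w : g' ≫ f = f' ≫ g) : pull g ⋙ pull f' ≅ pull f ⋙ pull g' :=
  pullComp g f' ≪≫ (pullCongr w).symm ≪≫ (pullComp f g').symm

theorem pull_unit_baseChange0 (w : g' ≫ f = f' ≫ g) (G : Ab Y) :
    (pull g).map ((pullPushAdj f).unit.app G) ≫ baseChange0 f g f' g' w ((pull f).obj G) =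
      (pullPushAdj f').unit.app ((pull g).obj G) ≫ (push f').map ((kap w).hom.app G) := by
  apply ((pullPushAdj g).homEquiv _ _).injective
  rw [Adjunction.homEquiv_unit, Adjunction.homEquiv_unit, Functor.map_comp, Functor.map_comp]
  have h1 := (pullPushAdj g).unit.naturality ((pullPushAdj f).unit.app G)
  have h2 := unit_baseChange0 w ((pull f).obj G)
  have h3 := unit_pullComp f g' G
  have h4 := unit_pullComp g f' G
  have h5 := unit_pullCongr w G
  let m : (pull g').obj ((pull f).obj G) ⟶ (pull (f' ≫ g)).obj G :=
    (pullComp f g').hom.app G ≫ (pullCongr w).hom.app G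
  let M : (push g).obj ((push f').obj ((pull g').obj ((pull f).obj G))) ⟶
      (push (f' ≫ g)).obj ((pull (f' ≫ g)).obj G) :=
    (push g).map ((push f').map m) ≫ (pushComp g f').hom.app _
  have hM : Mono M := inferInstance
  rw [← cancel_mono M]
  have hk : (kap w).hom.app G ≫ m = (pullComp g f').hom.app G := by
    simp only [kap, m, Iso.trans_hom, Iso.symm_hom, NatTrans.comp_app, Category.assoc]
    rw [Iso.inv_hom_id_app_assoc, Iso.inv_hom_id_app, Category.comp_id]
  have hR : ((pullPushAdj g).unit.app G ≫ (push g).map ((pullPushAdj f').unit.app ((pull g).obj G)) ≫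
      (push g).map ((push f').map ((kap w).hom.app G))) ≫ M =
      (pullPushAdj (f' ≫ g)).unit.app G := by
    have e : (push g).map ((push f').map ((kap w).hom.app G)) ≫ (push g).map ((push f').map m) =
        (push g).map ((push f').map ((pullComp g f').hom.app G)) := by
      rw [← Functor.map_comp, ← Functor.map_comp, hk]
    rw [h4]
    simp only [M, Category.assoc]
    rw [reassoc_of% e]
  have n1 : (BCCalc.sq w).hom.app ((pull g').obj ((pull f).obj G)) ≫ M =
      (push f).map ((push g').map m) ≫ (pushComp f g').hom.app _ ≫ (pushCongr w).hom.app _ := by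
    have e1 := (pushComp g f').inv.naturality m
    have e2 := (pushCongr w).hom.naturality m
    have e3 := (pushComp f g').hom.naturality m
    have e1' : (pushComp g f').inv.app ((pull g').obj ((pull f).obj G)) ≫
        (push g).map ((push f').map m) ≫ (pushComp g f').hom.app _ = (push (f' ≫ g)).map m := by
      have e0 := e1.symm
      rw [Functor.comp_map] at e0
      rw [← Category.assoc, e0, Category.assoc, Iso.inv_hom_id_app]
      exact Category.comp_id _
    simp only [BCCalc.sq, M, Iso.trans_hom, Iso.symm_hom, NatTrans.comp_app, Category.assoc]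
    rw [e1', ← e2, ← reassoc_of% e3]
  refine Eq.trans ?_ (hR.symm)
  rw [h5, h3]
  calc _ = ((pullPushAdj g).unit.app G ≫ (push g).map ((pull g).map ((pullPushAdj f).unit.app G)) ≫
        (push g).map (baseChange0 f g f' g' w ((pull f).obj G))) ≫ M := rfl
    _ = (pullPushAdj f).unit.app G ≫ ((pullPushAdj g).unit.app _ ≫
        (push g).map (baseChange0 f g f' g' w ((pull f).obj G))) ≫ M := by
        have h1' : (pullPushAdj g).unit.app G ≫
            (push g).map ((pull g).map ((pullPushAdj f).unit.app G)) =
              (pullPushAdj f).unit.app G ≫ (pullPushAdj g).unit.app _ := h1.symm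
        simp only [Category.assoc]
        rw [reassoc_of% h1']
    _ = _ := by
        rw [h2]
        simp only [Category.assoc]
        rw [n1]
        have e4 := (pushComp f g').hom.naturality ((pullCongr w).hom.app G)
        simp only [m, Functor.map_comp, Category.assoc]
        rw [← reassoc_of% e4]

/-- Base change at an inverse image, when both units are isomorphisms. -/
theorem isIso_baseChange0_of_isIso_unit (w : g' ≫ f = f' ≫ g) (G : Ab Y)
    (h : IsIso ((pullPushAdj f).unit.app G)) (h' : IsIso ((pullPushAdj f').unit.app ((pull g).obj G))) :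
    IsIso (baseChange0 f g f' g' w ((pull f).obj G)) := by
  have e := pull_unit_baseChange0 w G
  have h1 : IsIso ((pull g).map ((pullPushAdj f).unit.app G)) := inferInstance
  have h2 : IsIso ((pullPushAdj f').unit.app ((pull g).obj G) ≫ (push f').map ((kap w).hom.app G)) :=
    inferInstance
  have h3 : IsIso ((pull g).map ((pullPushAdj f).unit.app G) ≫ baseChange0 f g f' g' w ((pull f).obj G)) := by
    rw [e]; exact h2
  exact IsIso.of_isIso_comp_left ((pull g).map ((pullPushAdj f).unit.app G)) _

theorem isIso_unit_of_iso (f : X ⟶ Y) {G H : Ab Y} (e : G ≅ H) (h : IsIso ((pullPushAdj f).unit.app G)) :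
    IsIso ((pullPushAdj f).unit.app H) := by
  have n := (pullPushAdj f).unit.naturality e.hom
  have h1 : IsIso ((𝟭 (Ab Y)).map e.hom ≫ (pullPushAdj f).unit.app H) := by
    rw [n]
    infer_instance
  exact IsIso.of_isIso_comp_left ((𝟭 (Ab Y)).map e.hom) _

/-- Base change at a constant sheaf, when the constant sheaves downstairs are recovered. -/
theorem isIso_baseChange0_const (w : g' ≫ f = f' ≫ g) (M : Type) [AddCommGroup M]
    (h : IsIso ((pullPushAdj f).unit.app (EtCoh.const Y M)))
    (h' : IsIso ((pullPushAdj f').unit.app (EtCoh.const Y' M))) :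
    IsIso (baseChange0 f g f' g' w (EtCoh.const X M)) :=
  isIso_baseChange0_of_iso w (EtCore.pullConst f M)
    (isIso_baseChange0_of_isIso_unit w (EtCoh.const Y M) h
      (isIso_unit_of_iso f' (EtCore.pullConst g M).symm h'))

end Groth.Agent.Pi1.H403.BcGlue
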