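import Groth.Prelude.Def_SGA1t

/-!
# Base change of relative strict normal crossings divisors

* `isRelSNC_of_isPullback`: `SGA1t.IsRelSNC` is stable under base change `S' ⟶ S`.
* `isRelSNC_baseChange`: the form for the chosen pullback.
* `preimage_compl`: the preimage of the complement is the complement of the pulled back divisor.
* `isRelSNC_of_etale`: `SGA1t.IsRelSNC` is stable under étale `V ⟶ X`.
-/

set_option autoImplicit false
open CategoryTheory CategoryTheory.Limits AlgebraicGeometry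
universe u

namespace Groth.Agent.Pi1.H403.RelSNCBase

open SGA1t

theorem mem_basicOpen_appTop {X X' : Scheme.{u}} (p : X' ⟶ X) (s : Γ(X, ⊤)) (x' : X') :
    x' ∈ X'.basicOpen (p.appTop s) ↔ p x' ∈ X.basicOpen s := by
  have h : p ⁻¹ᵁ X.basicOpen s = X'.basicOpen (p.appTop s) := Scheme.preimage_basicOpen_top p s
  rw [← h]
  rfl

theorem preimage_compl {X X' : Scheme.{u}} (p : X' ⟶ X) {r : ℕ} (φ : Fin r → Γ(X, ⊤)) :
    p ⁻¹ᵁ compl φ = compl (fun i => p.appTop (φ i)) := by
  have h : p ⁻¹ᵁ X.basicOpen (∏ i, φ i) = X'.basicOpen (p.appTop (∏ i, φ i)) :=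
    Scheme.preimage_basicOpen_top p _
  refine h.trans ?_
  rw [map_prod]

/-- The functions vanishing at a point of the source are those vanishing at the image. -/
def vanEquiv {X X' : Scheme.{u}} (p : X' ⟶ X) {r : ℕ} (φ : Fin r → Γ(X, ⊤)) (x' : X') :
    vanishingAt (fun i => p.appTop (φ i)) x' ≃ vanishingAt φ (p x') :=
  Equiv.subtypeEquivRight fun i => not_congr (mem_basicOpen_appTop p (φ i) x')

/-- Restriction of a pulled back global section. -/
theorem restrict_appTop {X X' : Scheme.{u}} (p : X' ⟶ X) (W : X.Opens) (s : Γ(X, ⊤)) :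
    (p ∣_ W).appTop (W.topIso.inv (X.presheaf.map (homOfLE le_top).op s)) =
      (p ⁻¹ᵁ W).topIso.inv (X'.presheaf.map (homOfLE le_top).op (p.appTop s)) := by
  have e1 : ∀ {Z : Scheme.{u}} (O : Z.Opens) (t : Γ(Z, ⊤)),
      O.topIso.inv (Z.presheaf.map (homOfLE le_top).op t) = O.ι.appTop t := by
    intro Z O t
    rw [Scheme.Opens.ι_appTop, Scheme.Opens.topIso_inv]
    have h := Z.presheaf.map_comp (homOfLE (le_top : O ≤ ⊤)).op
      (eqToHom (Scheme.Opens.ι_image_top O)).op
    exact (congrArg (fun k => k t) h).symm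
  rw [e1, e1]
  have h := congrArg (fun k => Scheme.Hom.appTop k s) (morphismRestrict_ι p W)
  simpa only [Scheme.Hom.comp_appTop, CommRingCat.comp_apply] using h

theorem etale_homOfVector_of_isPullback {X S X' S' : Scheme.{u}} {f : X ⟶ S} {f' : X' ⟶ S'} {p : X' ⟶ X}
    {h : S' ⟶ S} (sq : IsPullback p f' f h) {n : Type u} (v : n → Γ(X, ⊤))
    (he : Etale (AffineSpace.homOfVector f v)) :
    Etale (AffineSpace.homOfVector f' (fun i => p.appTop (v i))) := by
  have hp : IsPullback p (AffineSpace.homOfVector f' (fun i => p.appTop (v i)))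
      (AffineSpace.homOfVector f v) (AffineSpace.map n h) := by
    refine IsPullback.of_bot ?_ ?_ (AffineSpace.isPullback_map (n := n) h)
    · simpa using sq
    · rw [AffineSpace.comp_homOfVector, AffineSpace.map]
      apply AffineSpace.hom_ext
      · simp [sq.w]
      · intro i
        simp
  exact MorphismProperty.of_isPullback (P := @Etale) hp he

theorem isRelSNC_of_isPullback {X S X' S' : Scheme.{u}} {f : X ⟶ S} {f' : X' ⟶ S'} {p : X' ⟶ X}
    {h : S' ⟶ S} (sq : IsPullback p f' f h) {r : ℕ} {φ : Fin r → Γ(X, ⊤)} (hD : IsRelSNC f φ) :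
    IsRelSNC f' (fun i => p.appTop (φ i)) := by
  intro x' hx'
  obtain ⟨W, hxW, d, v, e, he, het, hv⟩ := hD (p x') (hx'.map (vanEquiv p φ x'))
  have sq2 : IsPullback (p ∣_ W) ((p ⁻¹ᵁ W).ι ≫ f') (W.ι ≫ f) h :=
    (isPullback_morphismRestrict p W).paste_vert sq
  refine ⟨p ⁻¹ᵁ W, hxW, d, fun i => (p ∣_ W).appTop (v i), e ∘ vanEquiv p φ x',
    he.comp (Equiv.injective _), etale_homOfVector_of_isPullback sq2 v het, fun i => ?_⟩
  exact (congrArg (fun t => (p ∣_ W).appTop t) (hv (vanEquiv p φ x' i))).trans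
    (restrict_appTop p W (φ i.1))

theorem isRelSNC_baseChange {X S S' : Scheme.{u}} (f : X ⟶ S) {r : ℕ} (φ : Fin r → Γ(X, ⊤))
    (hD : IsRelSNC f φ) (h : S' ⟶ S) :
    IsRelSNC (pullback.snd f h) (fun i => (pullback.fst f h).appTop (φ i)) :=
  isRelSNC_of_isPullback (IsPullback.of_hasPullback f h) hD

/-- Stability under étale morphisms to `X`. -/
theorem isRelSNC_of_etale {X S X' : Scheme.{u}} {f : X ⟶ S} (p : X' ⟶ X) [Etale p] {r : ℕ}
    {φ : Fin r → Γ(X, ⊤)} (hD : IsRelSNC f φ) :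
    IsRelSNC (p ≫ f) (fun i => p.appTop (φ i)) := by
  intro x' hx'
  obtain ⟨W, hxW, d, v, e, he, het, hv⟩ := hD (p x') (hx'.map (vanEquiv p φ x'))
  refine ⟨p ⁻¹ᵁ W, hxW, d, fun i => (p ∣_ W).appTop (v i), e ∘ vanEquiv p φ x',
    he.comp (Equiv.injective _), ?_, fun i => ?_⟩
  · have e1 : AffineSpace.homOfVector ((p ⁻¹ᵁ W).ι ≫ p ≫ f) (fun i => (p ∣_ W).appTop (v i)) =
        (p ∣_ W) ≫ AffineSpace.homOfVector (W.ι ≫ f) v := by
      rw [AffineSpace.comp_homOfVector, morphismRestrict_ι_assoc]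
      rfl
    rw [e1]
    have : Etale (p ∣_ W) :=
      MorphismProperty.of_isPullback (P := @Etale) (isPullback_morphismRestrict p W).flip ‹_›
    infer_instance
  exact (congrArg (fun t => (p ∣_ W).appTop t) (hv (vanEquiv p φ x' i))).trans
    (restrict_appTop p W (φ i.1))

end Groth.Agent.Pi1.H403.RelSNCBase
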